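import Cfsg.Agent.Lib.Helper93.GP4.Defs

set_option autoImplicit false

namespace Cfsg.Agent.Lib.Helper93.GP4

open Cfsg.Lie Matrix Cfsg.Agent.Lib.Helper90.G2S Cfsg.Agent.Lib.Helper93.GP3
open scoped MatrixGroups

variable {F : Type*} [Field F]

/-- [ARI4] 251596800 = 2^12 * 3^3 * 5^2 * 7 * 13. -/
theorem ari4 (q : ℕ) (hq : q.Prime) (h : q ∣ 251596800) :
    q = 2 ∨ q = 3 ∨ q = 5 ∨ q = 7 ∨ q = 13 := by
  have h1 : (251596800 : ℕ) = 2 ^ 12 * 3 ^ 3 * 5 ^ 2 * 7 * 13 := by norm_num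
  rw [h1] at h
  rcases (Nat.Prime.dvd_mul hq).1 h with h | h
  · rcases (Nat.Prime.dvd_mul hq).1 h with h | h
    · rcases (Nat.Prime.dvd_mul hq).1 h with h | h
      · rcases (Nat.Prime.dvd_mul hq).1 h with h | h
        · left
          exact (Nat.prime_dvd_prime_iff_eq hq Nat.prime_two).1 (hq.dvd_of_dvd_pow h)
        · right; left
          exact (Nat.prime_dvd_prime_iff_eq hq Nat.prime_three).1 (hq.dvd_of_dvd_pow h)
      · right; right; left
        exact (Nat.prime_dvd_prime_iff_eq hq Nat.prime_five).1 (hq.dvd_of_dvd_pow h)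
    · right; right; right; left
      exact (Nat.prime_dvd_prime_iff_eq hq (by norm_num)).1 h
  · right; right; right; right
    exact (Nat.prime_dvd_prime_iff_eq hq (by norm_num)).1 h

end Cfsg.Agent.Lib.Helper93.GP4
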