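import Cfsg.Agent.Lib.Helper93.GP3.Defs

/-! Ladder GP4 (helper93): groups with the prime graph of `G₂(4)`.  Definitions only. -/

set_option autoImplicit false

namespace Cfsg.Agent.Lib.Helper93.GP4

open Cfsg.Lie Matrix Cfsg.Agent.Lib.Helper90.G2S Cfsg.Agent.Lib.Helper93.GP3
open scoped MatrixGroups

variable {F : Type*} [Field F]

/-- `(a, b) ↦ [[0, a], [b, 0]]`. -/
def jj (w : Fin 6 → F) : Fin 8 → F := ![0, w 0, w 1, w 2, w 3, w 4, w 5, 0]

/-- `[[α, a], [b, β]] ↦ (a, b)`. -/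
def pp (x : Fin 8 → F) : Fin 6 → F := ![x 1, x 2, x 3, x 4, x 5, x 6]

/-- the action of `G₂(F)` on the 6-dimensional section (trace zero) / (scalars), characteristic 2. -/
def rho (g : G2 F) (w : Fin 6 → F) : Fin 6 → F := pp (act g (jj w))

end Cfsg.Agent.Lib.Helper93.GP4
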