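import Cfsg.Agent.Lib.Helper93.GP4.Defs
import Cfsg.Agent.Lib.Helper90.G2S.O3
import Cfsg.Agent.Lib.Helper90.G2S.O3K
import Cfsg.Agent.Lib.Helper46.SL2Spectrum

set_option autoImplicit false

namespace Cfsg.Agent.Lib.Helper93.GP4

open Cfsg.Lie Matrix Cfsg.Agent.Lib.Helper90.G2S Cfsg.Agent.Lib.Helper93.GP3
open scoped MatrixGroups

variable {F : Type*} [Field F]

theorem e10_char [Fintype F] (hF : Fintype.card F = 4) : CharP F 2 := by
  obtain ⟨n, hp, hn⟩ := FiniteField.card F (ringChar F)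
  have h1 : ringChar F ∣ 2 ^ 2 := by
    have : ringChar F ∣ Fintype.card F := by
      rw [hn]; exact dvd_pow_self _ n.ne_zero
    rw [hF] at this
    simpa using this
  have h2 : ringChar F = 2 :=
    (Nat.prime_dvd_prime_iff_eq hp Nat.prime_two).1 (hp.dvd_of_dvd_pow h1)
  rw [← h2]
  exact ringChar.charP F

/-- the transvection -/
def e10r (F : Type*) [Field F] : SpecialLinearGroup (Fin 2) F :=
  ⟨!![1, 1; 0, 1], by simp [Matrix.det_fin_two_of]⟩

theorem e10_r2 (h2 : (2 : F) = 0) : (e10r F) ^ 2 = 1 := by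
  have h11 : (1 : F) + 1 = 0 := by rw [← h2]; norm_num
  apply Subtype.ext
  rw [pow_two]
  show (!![1, 1; 0, 1] : Matrix (Fin 2) (Fin 2) F) * !![1, 1; 0, 1] = 1
  rw [Matrix.mul_fin_two, Matrix.one_fin_two]
  simp [h11]

theorem ex10 [Fintype F] (hF : Fintype.card F = 4) : ∃ y : G2 F, orderOf y = 10 := by
  have := e10_char hF
  have : Fact (Nat.Prime 2) := ⟨Nat.prime_two⟩
  have h2 : (2 : F) = 0 := by
    have := CharP.cast_eq_zero F 2
    simpa using this
  obtain ⟨P, hP⟩ := Cfsg.Agent.Lib.Helper46.exists_orderOf_card_add_one (F := F) 2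
  rw [hF] at hP
  have hP : orderOf P = 5 := hP
  obtain ⟨Φ, hΦ⟩ := exists_Phi (F := F)
  have hr2 := e10_r2 h2
  have hmem : ((SpecialLinearGroup.toGL P, SpecialLinearGroup.toGL (e10r F)) :
      GL (Fin 2) F × GL (Fin 2) F) ∈ MM F := by
    show GeneralLinearGroup.det (SpecialLinearGroup.toGL P)
      = GeneralLinearGroup.det (SpecialLinearGroup.toGL (e10r F))
    ext
    simp
  set m : MM F := ⟨(SpecialLinearGroup.toGL P, SpecialLinearGroup.toGL (e10r F)), hmem⟩ with hm
  have key : ∀ k : ℕ, Φ m ^ k = 1 → ∃ c : F,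
      ((P ^ k : SpecialLinearGroup (Fin 2) F) : Matrix (Fin 2) (Fin 2) F) = c • 1 ∧
      (((e10r F) ^ k : SpecialLinearGroup (Fin 2) F) : Matrix (Fin 2) (Fin 2) F) = c • 1 := by
    intro k hk
    rw [← map_pow] at hk
    obtain ⟨c, h1, h2⟩ := ker_Phi hΦ (m ^ k) hk
    have e1 : (m ^ k).1.1 = SpecialLinearGroup.toGL (P ^ k) := by rw [map_pow]; rfl
    have e2 : (m ^ k).1.2 = SpecialLinearGroup.toGL ((e10r F) ^ k) := by rw [map_pow]; rfl
    rw [e1] at h1
    rw [e2] at h2
    exact ⟨c, h1, h2⟩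
  have hP5 : P ^ 5 = 1 := by rw [← hP]; exact pow_orderOf_eq_one P
  refine ⟨Φ m, orderOf_eq_of_pow_and_pow_div_prime (by norm_num) ?_ ?_⟩
  · rw [← map_pow]
    have : m ^ 10 = 1 := by
      apply Subtype.ext
      show (SpecialLinearGroup.toGL P ^ 10, SpecialLinearGroup.toGL (e10r F) ^ 10) = (1, 1)
      rw [← map_pow, ← map_pow]
      have a1 : P ^ 10 = 1 := by
        rw [show 10 = 5 * 2 from rfl, pow_mul, hP5, one_pow]
      have a2 : (e10r F) ^ 10 = 1 := by
        rw [show 10 = 2 * 5 from rfl, pow_mul, hr2, one_pow]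
      rw [a1, a2, map_one]
    rw [this, map_one]
  · intro p hp hpd
    have hp' : p = 2 ∨ p = 5 := by
      have : p ∣ 2 * 5 := by simpa using hpd
      rcases (Nat.Prime.dvd_mul hp).1 this with h | h
      · exact Or.inl ((Nat.prime_dvd_prime_iff_eq hp Nat.prime_two).1 h)
      · exact Or.inr ((Nat.prime_dvd_prime_iff_eq hp (by norm_num)).1 h)
    rcases hp' with rfl | rfl
    · -- exponent 5
      intro h
      obtain ⟨c, h1, h2'⟩ := key 5 (by simpa using h)
      rw [hP5] at h1
      have hc : c = 1 := by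
        have := congrFun (congrFun h1 0) 0
        simpa using this.symm
      have hr5 : (e10r F) ^ 5 = e10r F := by
        rw [show 5 = 2 * 2 + 1 from rfl, pow_succ, pow_mul, hr2, one_pow, one_mul]
      rw [hr5, hc] at h2'
      have := congrFun (congrFun h2' 0) 1
      simp [e10r] at this
    · -- exponent 2
      intro h
      obtain ⟨c, h1, h2'⟩ := key 2 (by simpa using h)
      rw [hr2] at h2'
      have hc : c = 1 := by
        have := congrFun (congrFun h2' 0) 0
        simpa using this.symm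
      rw [hc, one_smul] at h1
      have hP2 : P ^ 2 = 1 := by
        apply Subtype.ext
        rw [h1]; rfl
      have := orderOf_dvd_of_pow_eq_one hP2
      rw [hP] at this
      norm_num at this

end Cfsg.Agent.Lib.Helper93.GP4
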