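import Cfsg.Agent.Lib.Helper93.GP4.Defs
import Cfsg.Agent.Lib.Helper90.G2S.O4
import Cfsg.Agent.Lib.Helper90.G2S.O8

set_option autoImplicit false

namespace Cfsg.Agent.Lib.Helper93.GP4

open Cfsg.Lie Matrix Cfsg.Agent.Lib.Helper90.G2S Cfsg.Agent.Lib.Helper93.GP3
open scoped MatrixGroups

variable {F : Type*} [Field F]

/-- the matrix of order 6 in `SL₃(4)`. -/
def e6M (ω : F) : Matrix (Fin 3) (Fin 3) F := !![ω, 1, 0; 0, ω, 0; 0, 0, ω]

theorem e6_det (ω : F) (h : ω ^ 3 = 1) : (e6M ω).det = 1 := by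
  simp [e6M, Matrix.det_fin_three]
  linear_combination h

theorem e6_sq (ω : F) (h2 : (2 : F) = 0) :
    e6M ω * e6M ω = !![ω ^ 2, 0, 0; 0, ω ^ 2, 0; 0, 0, ω ^ 2] := by
  ext i j
  fin_cases i <;> fin_cases j <;> simp [e6M, Matrix.mul_apply, Fin.sum_univ_three] <;>
    first | linear_combination ω * h2 | ring

theorem e6_cube (ω : F) (h2 : (2 : F) = 0) (h : ω ^ 3 = 1) :
    e6M ω * e6M ω * e6M ω = !![1, ω ^ 2, 0; 0, 1, 0; 0, 0, 1] := by
  rw [e6_sq ω h2]
  ext i j
  fin_cases i <;> fin_cases j <;> simp [e6M, Matrix.mul_apply, Fin.sum_univ_three] <;>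
    linear_combination h

theorem e6_six (ω : F) (h2 : (2 : F) = 0) (h : ω ^ 3 = 1) :
    (e6M ω * e6M ω * e6M ω) * (e6M ω * e6M ω * e6M ω) = 1 := by
  rw [e6_cube ω h2 h]
  ext i j
  fin_cases i <;> fin_cases j <;> simp [Matrix.mul_apply, Fin.sum_univ_three]
  linear_combination ω ^ 2 * h2

/-- [E6] an element of order 6 of `G₂(4)`. -/
theorem ex6' [Fintype F] (hF : Fintype.card F = 4) : ∃ y : G2 F, orderOf y = 6 := by
  classical
  have h4 : (4 : F) = 0 := by
    have h := FiniteField.cast_card_eq_zero F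
    rw [hF] at h
    exact_mod_cast h
  have h2 : (2 : F) = 0 := by
    have : (2 : F) * 2 = 0 := by linear_combination h4
    exact mul_self_eq_zero.mp this
  obtain ⟨ω, hω0, hω1⟩ : ∃ ω : F, ω ≠ 0 ∧ ω ≠ 1 := by
    by_contra hcon
    push Not at hcon
    have hsub : (Finset.univ : Finset F) ⊆ {0, 1} := by
      intro x _
      by_cases hx : x = 0
      · simp [hx]
      · simp [hcon x hx]
    have := Finset.card_le_card hsub
    rw [Finset.card_univ, hF] at this
    have h' : ({0, 1} : Finset F).card ≤ 2 := Finset.card_le_two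
    omega
  have hω3 : ω ^ 3 = 1 := by
    have := FiniteField.pow_card_sub_one_eq_one ω hω0
    rwa [hF] at this
  obtain ⟨ι, hι⟩ := exists_iota (F := F)
  have hinj : Function.Injective ι := fun s s' h => o8_actsAs_inj (hι s) (h ▸ hι s')
  let s : SpecialLinearGroup (Fin 3) F := ⟨e6M ω, e6_det ω hω3⟩
  refine ⟨ι s, ?_⟩
  rw [orderOf_injective ι hinj]
  have hs2 : s ^ 2 ≠ 1 := by
    intro h
    have h' := congrArg (fun t : SpecialLinearGroup (Fin 3) F => (t : Matrix (Fin 3) (Fin 3) F) 0 0) h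
    simp only [Matrix.SpecialLinearGroup.coe_pow, Matrix.SpecialLinearGroup.coe_one, pow_two] at h'
    change (e6M ω * e6M ω) 0 0 = _ at h'
    rw [e6_sq ω h2] at h'
    simp at h'
    -- ω ^ 2 = 1 and ω ^ 3 = 1 give ω = 1
    apply hω1
    have h'' : ω ^ 2 = 1 := by simpa using h'
    calc ω = ω ^ 3 * (ω ^ 2)⁻¹ := by
            rw [pow_succ ω 2, mul_comm (ω ^ 2) ω, mul_assoc, mul_inv_cancel₀ (pow_ne_zero 2 hω0), mul_one]
      _ = 1 := by rw [hω3, h'']; simp
  have hs3 : s ^ 3 ≠ 1 := by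
    intro h
    have h' := congrArg (fun t : SpecialLinearGroup (Fin 3) F => (t : Matrix (Fin 3) (Fin 3) F) 0 1) h
    simp only [Matrix.SpecialLinearGroup.coe_pow, Matrix.SpecialLinearGroup.coe_one, pow_succ, pow_zero, one_mul] at h'
    change (e6M ω * e6M ω * e6M ω) 0 1 = _ at h'
    rw [e6_cube ω h2 hω3] at h'
    simp at h'
    exact hω0 h'
  have hs6 : s ^ 6 = 1 := by
    have h6 : (s ^ 6 : SpecialLinearGroup (Fin 3) F) = (s * s * s) * (s * s * s) := by
      simp only [pow_succ, pow_zero, one_mul, mul_assoc]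
    rw [h6]
    apply Subtype.ext
    exact e6_six ω h2 hω3
  refine orderOf_eq_of_pow_and_pow_div_prime (by norm_num) hs6 ?_
  intro p hp hd
  have hle : p ≤ 6 := Nat.le_of_dvd (by norm_num) hd
  interval_cases p
  · exact absurd hp (by norm_num)
  · exact absurd hp (by norm_num)
  · exact hs3
  · exact hs2
  · exact absurd hp (by norm_num)
  · exact absurd hd (by norm_num)
  · exact absurd hp (by norm_num)

end Cfsg.Agent.Lib.Helper93.GP4
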