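import Cfsg.Agent.Lib.Helper93.GP4.Defs
import Cfsg.Agent.Lib.Helper93.GP3.MOD7

set_option autoImplicit false

namespace Cfsg.Agent.Lib.Helper93.GP4

open Cfsg.Lie Matrix Cfsg.Agent.Lib.Helper90.G2S Cfsg.Agent.Lib.Helper93.GP3
open scoped MatrixGroups

variable {F : Type*} [Field F]

theorem modp_pow (p : ℕ) (hp : 0 < p) (x : G2 F) (hx : x ^ p = 1) (k : G2 F) (hk : k ∈ Subgroup.zpowers x) :
    ∃ n : ℕ, k = x ^ n := by
  have hfin : IsOfFinOrder x := isOfFinOrder_iff_pow_eq_one.2 ⟨p, hp, hx⟩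
  obtain ⟨n, hn⟩ := (hfin.mem_powers_iff_mem_zpowers).2 hk
  exact ⟨n, hn.symm⟩

/-- [MODP] -/
theorem modp [Finite F] (p : ℕ) [Fact p.Prime] (x : G2 F) (hx : x ^ p = 1)
    (U : Submodule F (Fin 8 → F)) (hU : ∀ v ∈ U, act x v ∈ U) :
    Nat.card U ≡ Nat.card ↥(U ⊓ fixS x) [MOD p] := by
  classical
  have hp0 : 0 < p := (Fact.out : p.Prime).pos
  have hinv : ∀ k ∈ Subgroup.zpowers x, ∀ v ∈ U, act k v ∈ U := by
    intro k hk v hv
    obtain ⟨n, rfl⟩ := modp_pow p hp0 x hx k hk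
    exact mod7_inv x U hU n v hv
  letI actn : MulAction (Subgroup.zpowers x) U :=
    { smul := fun k v => ⟨act (k : G2 F) v, hinv k k.2 v v.2⟩
      one_smul := fun v => by
        apply Subtype.ext
        show act ((1 : Subgroup.zpowers x) : G2 F) v = v
        rw [Subgroup.coe_one, act_one]
      mul_smul := fun g h v => by
        apply Subtype.ext
        show act ((g * h : Subgroup.zpowers x) : G2 F) v = act (g : G2 F) (act (h : G2 F) v)
        rw [Subgroup.coe_mul, act_mul] }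
  have hsmul : ∀ (k : Subgroup.zpowers x) (v : U), ((k • v : U) : Fin 8 → F) = act (k : G2 F) v :=
    fun _ _ => rfl
  have hP : IsPGroup p (Subgroup.zpowers x) := by
    rintro ⟨k, hk⟩
    obtain ⟨n, rfl⟩ := modp_pow p hp0 x hx k hk
    refine ⟨1, ?_⟩
    apply Subtype.ext
    show (x ^ n) ^ (p ^ 1) = 1
    rw [pow_one, ← pow_mul, mul_comm, pow_mul, hx, one_pow]
  have h := hP.card_modEq_card_fixedPoints U
  have e : MulAction.fixedPoints (Subgroup.zpowers x) U ≃ ↥(U ⊓ fixS x) :=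
    { toFun := fun v => ⟨(v.1 : Fin 8 → F), v.1.2, by
          have := v.2 ⟨x, Subgroup.mem_zpowers x⟩
          exact congrArg Subtype.val this⟩
      invFun := fun w => ⟨⟨w.1, w.2.1⟩, by
          rintro ⟨k, hk⟩
          obtain ⟨n, rfl⟩ := modp_pow p hp0 x hx k hk
          apply Subtype.ext
          show act (x ^ n) w.1 = w.1
          exact mod7_fix x w.1 w.2.2 n⟩
      left_inv := fun v => rfl
      right_inv := fun w => rfl }
  rw [Nat.card_congr e] at h
  exact h

end Cfsg.Agent.Lib.Helper93.GP4
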