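import Cfsg.Agent.Lib.Helper93.GP4.Defs
import Cfsg.Agent.Lib.Helper93.GP4.MODP
import Cfsg.Agent.Lib.Helper93.GP3.FIX7

set_option autoImplicit false

namespace Cfsg.Agent.Lib.Helper93.GP4

open Cfsg.Lie Matrix Cfsg.Agent.Lib.Helper90.G2S Cfsg.Agent.Lib.Helper93.GP3
open scoped MatrixGroups

variable {F : Type*} [Field F]

theorem f13_card [Fintype F] (hF : Fintype.card F = 4) (U : Submodule F (Fin 8 → F)) :
    Nat.card U = 4 ^ Module.finrank F U ∧ Module.finrank F U ≤ 8 := by
  constructor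
  · rw [Module.natCard_eq_pow_finrank (K := F) (V := U), Nat.card_eq_fintype_card, hF]
  · have := Submodule.finrank_le U
    rwa [Module.finrank_fin_fun] at this

/-- [F13] -/
theorem card_fix13 [Fintype F] (hF : Fintype.card F = 4) (x : G2 F) (hx : x ^ 13 = 1) (hx1 : x ≠ 1) :
    Nat.card (fixS x) = 16 := by
  haveI : Fact (Nat.Prime 13) := ⟨by norm_num⟩
  have h := modp 13 x hx ⊤ (fun v _ => trivial)
  rw [top_inf_eq] at h
  obtain ⟨h1, h2⟩ := f13_card hF (fixS x)
  obtain ⟨h3, -⟩ := f13_card hF (⊤ : Submodule F (Fin 8 → F))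
  rw [finrank_top, Module.finrank_fin_fun] at h3
  rw [h1, h3] at h
  rw [h1]
  have h8 : Module.finrank F (fixS x) ≠ 8 := by
    intro h8
    apply hx1
    apply fix7_eq_one
    apply Submodule.eq_top_of_finrank_eq
    rw [h8, Module.finrank_fin_fun]
  generalize Module.finrank F (fixS x) = d at *
  unfold Nat.ModEq at h
  interval_cases d <;> simp_all

end Cfsg.Agent.Lib.Helper93.GP4
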