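import Cfsg.Agent.Lib.Helper93.GP4.Defs
import Cfsg.Agent.Lib.Helper93.GP3.TRN

set_option autoImplicit false

namespace Cfsg.Agent.Lib.Helper93.GP4

open Cfsg.Lie Matrix Cfsg.Agent.Lib.Helper90.G2S Cfsg.Agent.Lib.Helper93.GP3
open scoped MatrixGroups

variable {F : Type*} [Field F]

theorem fv_two [Fintype F] (hF : Fintype.card F = 4) : (2 : F) = 0 := by
  have h4 := FiniteField.cast_card_eq_zero F
  rw [hF] at h4
  have h4' : (2 : F) * 2 = 0 := by
    have : ((4 : ℕ) : F) = 2 * 2 := by norm_num
    rw [← this]; exact h4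
  exact mul_self_eq_zero.mp h4'

theorem fv_act_sum (g : G2 F) {κ : Type*} (s : Finset κ) (f : κ → Fin 8 → F) :
    act g (∑ i ∈ s, f i) = ∑ i ∈ s, act g (f i) := by
  classical
  induction s using Finset.induction_on with
  | empty => simp [O5_zero]
  | insert a s ha ih => rw [Finset.sum_insert ha, Finset.sum_insert ha, act_add, ih]

theorem fv_odd_cast (h2 : (2 : F) = 0) (q : ℕ) (hq : Odd q) : (q : F) = 1 := by
  obtain ⟨m, rfl⟩ := hq
  push_cast
  rw [h2, zero_mul, zero_add]

/-- [FV] -/
theorem fv [Fintype F] (hF : Fintype.card F = 4) (g : G2 F) (q : ℕ) (hq : Odd q) (hg : g ^ q = 1)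
    (w : Fin 6 → F) (hw : w ≠ 0) (hfix : rho g w = w) : 64 ≤ Nat.card (fixS g) := by
  have h2 : (2 : F) = 0 := fv_two hF
  have hq1 : (q : F) = 1 := fv_odd_cast h2 q hq
  have hneg : ∀ x : F, -x = x := by
    intro x
    have : x + x = 0 := by rw [← two_mul, h2, zero_mul]
    exact neg_eq_of_add_eq_zero_left this
  -- `v = jj w` is moved by a multiple of `one8`
  have hv0 : jj w ≠ 0 := by
    intro h
    apply hw
    funext i
    fin_cases i
    · exact congrFun h 1
    · exact congrFun h 2
    · exact congrFun h 3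
    · exact congrFun h 4
    · exact congrFun h 5
    · exact congrFun h 6
  have htr : act g (jj w) 0 + act g (jj w) 7 = 0 := by
    have := (tr_nm_act g (jj w)).1
    unfold tr8 at this
    rw [this]
    simp [jj]
  have h7 : act g (jj w) 7 = act g (jj w) 0 := by
    have : act g (jj w) 7 = -(act g (jj w) 0) := eq_neg_of_add_eq_zero_right htr
    rw [this, hneg]
  have hstep : act g (jj w) = jj w + (act g (jj w) 0) • one8 := by
    have hp : ∀ i : Fin 6, pp (act g (jj w)) i = w i := fun i => congrFun hfix i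
    funext i
    fin_cases i
    · simp [jj, one8]
    · simpa [jj, one8, pp] using hp 0
    · simpa [jj, one8, pp] using hp 1
    · simpa [jj, one8, pp] using hp 2
    · simpa [jj, one8, pp] using hp 3
    · simpa [jj, one8, pp] using hp 4
    · simpa [jj, one8, pp] using hp 5
    · simpa [jj, one8] using h7
  obtain ⟨α, hα⟩ : ∃ α : F, α = act g (jj w) 0 := ⟨_, rfl⟩
  rw [← hα] at hstep
  have hpow : ∀ i : ℕ, act (g ^ i) (jj w) = jj w + ((i : F) * α) • one8 := by
    intro i
    induction i with
    | zero => simp [act_one]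
    | succ i ih =>
      rw [pow_succ, act_mul, hstep, act_add, act_smul, act_one8, ih, add_assoc, ← add_smul]
      push_cast
      ring_nf
  have hα0 : α = 0 := by
    have h := hpow q
    rw [hg, act_one, hq1, one_mul] at h
    have h' := congrFun h 0
    simpa [jj, one8] using h'.symm
  have hvfix : jj w ∈ fixS g := by
    rw [mem_fixS, hstep, hα0, zero_smul, add_zero]
  have h1fix : (one8 : Fin 8 → F) ∈ fixS g := by
    rw [mem_fixS]; exact act_one8 g
  -- the averaged idempotent
  obtain ⟨u, hu⟩ : ∃ u : Fin 8 → F, u = ∑ i ∈ Finset.range q, act (g ^ i) e1 := ⟨_, rfl⟩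
  have hufix : u ∈ fixS g := by
    rw [mem_fixS, hu, fv_act_sum]
    have h1 : ∀ i, act g (act (g ^ i) e1) = act (g ^ (i + 1)) e1 := by
      intro i; rw [← act_mul, pow_succ']
    rw [Finset.sum_congr rfl (fun i _ => h1 i)]
    have h2' := Finset.sum_range_succ (fun i => act (g ^ i) (e1 : Fin 8 → F)) q
    have h3 := Finset.sum_range_succ' (fun i => act (g ^ i) (e1 : Fin 8 → F)) q
    rw [h2'] at h3
    simp only [hg, pow_zero] at h3
    exact (add_right_cancel h3).symm
  have hutr : u 0 + u 7 = 1 := by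
    have h1 : ∀ i, act (g ^ i) (e1 : Fin 8 → F) 0 + act (g ^ i) (e1 : Fin 8 → F) 7 = 1 := by
      intro i
      have := (tr_nm_act (g ^ i) (e1 : Fin 8 → F)).1
      unfold tr8 at this
      rw [this]
      simp [e1]
    rw [hu, Finset.sum_apply, Finset.sum_apply, ← Finset.sum_add_distrib,
      Finset.sum_congr rfl (fun i _ => h1 i)]
    simp [hq1]
  have hind : ∀ a b c : F, a • (one8 : Fin 8 → F) + b • u + c • jj w = 0 → a = 0 ∧ b = 0 ∧ c = 0 := by
    intro a b c h
    have e0 := congrFun h 0
    have e7 := congrFun h 7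
    have o0 : (one8 : Fin 8 → F) 0 = 1 := rfl
    have o7 : (one8 : Fin 8 → F) 7 = 1 := rfl
    have j0 : jj w 0 = 0 := rfl
    have j7 : jj w 7 = 0 := rfl
    simp only [Pi.add_apply, Pi.smul_apply, smul_eq_mul, o0, o7, j0, j7, Pi.zero_apply] at e0 e7
    have hb : b = 0 := by
      have : b * (u 0 + u 7) + 2 * a = 0 := by linear_combination e0 + e7
      rw [hutr, h2] at this
      simpa using this
    have ha : a = 0 := by
      rw [hb] at e0
      simpa using e0
    rw [ha, hb, zero_smul, zero_smul, zero_add, zero_add] at h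
    exact ⟨ha, hb, (smul_eq_zero.mp h).resolve_right hv0⟩
  have hinj : Function.Injective (fun x : Fin 3 → F =>
      (⟨x 0 • (one8 : Fin 8 → F) + x 1 • u + x 2 • jj w,
        (fixS g).add_mem ((fixS g).add_mem ((fixS g).smul_mem _ h1fix) ((fixS g).smul_mem _ hufix))
          ((fixS g).smul_mem _ hvfix)⟩ : fixS g)) := by
    intro x y hxy
    have h := congrArg Subtype.val hxy
    simp only at h
    have h' : (x 0 - y 0) • (one8 : Fin 8 → F) + (x 1 - y 1) • u + (x 2 - y 2) • jj w = 0 := by
      rw [sub_smul, sub_smul, sub_smul]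
      have := sub_eq_zero.mpr h
      rw [← this]; abel
    obtain ⟨a0, a1, a2⟩ := hind _ _ _ h'
    funext i
    fin_cases i
    · exact sub_eq_zero.mp a0
    · exact sub_eq_zero.mp a1
    · exact sub_eq_zero.mp a2
  have hc := Nat.card_le_card_of_injective _ hinj
  have h64 : Nat.card (Fin 3 → F) = 64 := by
    rw [Nat.card_eq_fintype_card, Fintype.card_fun, Fintype.card_fin, hF]; norm_num
  rw [h64] at hc
  exact hc

end Cfsg.Agent.Lib.Helper93.GP4
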