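import Cfsg.Agent.Lib.Helper93.GP4.Defs

set_option autoImplicit false

namespace Cfsg.Agent.Lib.Helper93.GP4

open Cfsg.Lie Matrix Cfsg.Agent.Lib.Helper90.G2S Cfsg.Agent.Lib.Helper93.GP3
open scoped MatrixGroups

variable {F : Type*} [Field F]

theorem rho1_jj_add (w w' : Fin 6 → F) : jj (w + w') = jj w + jj w' := by
  ext i
  fin_cases i <;> simp [jj]

theorem rho1_pp_add (x y : Fin 8 → F) : pp (x + y) = pp x + pp y := by
  ext i
  fin_cases i <;> simp [pp]

theorem rho1_pp_jj (w : Fin 6 → F) : pp (jj w) = w := by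
  ext i
  fin_cases i <;> rfl

/-- [RHO1] -/
theorem rho_one (w : Fin 6 → F) : rho (1 : G2 F) w = w := by
  unfold rho
  rw [act_one, rho1_pp_jj]

/-- [RHO1] -/
theorem rho_add (g : G2 F) (w w' : Fin 6 → F) : rho g (w + w') = rho g w + rho g w' := by
  unfold rho
  rw [rho1_jj_add, act_add, rho1_pp_add]

end Cfsg.Agent.Lib.Helper93.GP4
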