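import Cfsg.Agent.Lib.Helper93.GP4.Defs
import Cfsg.Agent.Lib.Helper93.GP3.TRN

set_option autoImplicit false

namespace Cfsg.Agent.Lib.Helper93.GP4

open Cfsg.Lie Matrix Cfsg.Agent.Lib.Helper90.G2S Cfsg.Agent.Lib.Helper93.GP3
open scoped MatrixGroups

variable {F : Type*} [Field F]

theorem rho2_pp_add (x y : Fin 8 → F) : pp (x + y) = pp x + pp y := by
  ext i
  fin_cases i <;> simp [pp]

theorem rho2_pp_one8 (c : F) : pp (c • (one8 : Fin 8 → F)) = 0 := by
  ext i
  fin_cases i <;> simp [pp, one8]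

/-- [RHO2] -/
theorem act_jj (h2 : (2 : F) = 0) (g : G2 F) (w : Fin 6 → F) :
    act g (jj w) = jj (rho g w) + (act g (jj w) 0) • one8 := by
  have ht := (tr_nm_act g (jj w)).1
  have h0 : tr8 (jj w) = 0 := by simp [tr8, jj]
  rw [h0] at ht
  unfold tr8 at ht
  have h7 : act g (jj w) 7 = act g (jj w) 0 := by
    have : act g (jj w) 7 = (act g (jj w) 0 + act g (jj w) 7) - 2 * act g (jj w) 0 + act g (jj w) 0 := by ring
    rw [this, ht, h2]; ring
  ext i
  fin_cases i
  · simp [jj, one8]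
  · simp [jj, pp, rho, one8]
  · simp [jj, pp, rho, one8]
  · simp [jj, pp, rho, one8]
  · simp [jj, pp, rho, one8]
  · simp [jj, pp, rho, one8]
  · simp [jj, pp, rho, one8]
  · simpa [jj, one8] using h7

/-- [RHO2] -/
theorem rho_mul (h2 : (2 : F) = 0) (g h : G2 F) (w : Fin 6 → F) : rho (g * h) w = rho g (rho h w) := by
  have h3 : act (g * h) (jj w) = act g (jj (rho h w)) + (act h (jj w) 0) • one8 := by
    rw [act_mul]
    conv_lhs => rw [act_jj h2 h w]
    rw [act_add, act_smul, act_one8]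
  show pp (act (g * h) (jj w)) = pp (act g (jj (rho h w)))
  rw [h3, rho2_pp_add, rho2_pp_one8, add_zero]

end Cfsg.Agent.Lib.Helper93.GP4
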