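import Cfsg.Agent.Lib.Helper93.GP4.Defs
import Cfsg.Agent.Lib.Helper90.GI.SG3

set_option autoImplicit false

namespace Cfsg.Agent.Lib.Helper93.GP4

open Cfsg.Lie Matrix Cfsg.Agent.Lib.Helper90.G2S Cfsg.Agent.Lib.Helper93.GP3
open scoped MatrixGroups

variable {F : Type*} [Field F]

/-- [S7A] -/
theorem exists_s7 [Fintype F] (hF : Fintype.card F = 4) :
    ∃ s : SpecialLinearGroup (Fin 3) F, orderOf s = 7 := by
  obtain ⟨s0, h0, -, -⟩ := Cfsg.Agent.Lib.Helper90.GI.exists_singer (F := F)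
  rw [hF] at h0
  refine ⟨s0 ^ 3, ?_⟩
  rw [orderOf_pow' s0 (by norm_num), h0]
  norm_num

end Cfsg.Agent.Lib.Helper93.GP4
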