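import Cfsg.Agent.Lib.Helper93.GP4.Defs

set_option autoImplicit false

namespace Cfsg.Agent.Lib.Helper93.GP4

open Cfsg.Lie Matrix Cfsg.Agent.Lib.Helper90.G2S Cfsg.Agent.Lib.Helper93.GP3
open scoped MatrixGroups

variable {F : Type*} [Field F]

theorem s7b_aux [Fintype F] (hF : Fintype.card F = 4) (M : Matrix (Fin 3) (Fin 3) F)
    (hM : M ^ 7 = 1) (hM1 : M ≠ 1) (a : Fin 3 → F) (ha : M *ᵥ a = a) : a = 0 := by
  classical
  haveI : Fact (Nat.Prime 7) := ⟨by norm_num⟩
  set f : Module.End F (Fin 3 → F) := Matrix.toLinAlgEquiv' M with hf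
  have hfa : ∀ v, f v = M *ᵥ v := fun v => Matrix.toLinAlgEquiv'_apply M v
  have hf7 : f ^ 7 = 1 := by rw [hf, ← map_pow, hM, map_one]
  set u : (Module.End F (Fin 3 → F))ˣ := Units.ofPowEqOne f 7 hf7 (by norm_num) with hu
  have hu7 : u ^ 7 = 1 := Units.pow_ofPowEqOne hf7 (by norm_num)
  have hus : ∀ v : Fin 3 → F, u • v = f v := fun v => rfl
  have hP : IsPGroup 7 (Subgroup.zpowers u) := by
    rintro ⟨k, hk⟩
    obtain ⟨n, rfl⟩ := Subgroup.mem_zpowers_iff.1 hk
    refine ⟨1, ?_⟩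
    apply Subtype.ext
    show (u ^ n) ^ (7 ^ 1) = 1
    rw [pow_one, ← zpow_natCast, ← _root_.zpow_mul, mul_comm, _root_.zpow_mul, zpow_natCast, hu7, _root_.one_zpow]
  have h := hP.card_modEq_card_fixedPoints (Fin 3 → F)
  let K : Submodule F (Fin 3 → F) := LinearMap.ker (f - 1)
  have hK : ∀ v, v ∈ K ↔ f v = v := by
    intro v
    simp [K, LinearMap.mem_ker, sub_eq_zero]
  have e : Nat.card (MulAction.fixedPoints (Subgroup.zpowers u) (Fin 3 → F)) = Nat.card K := by
    apply Nat.card_congr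
    refine Equiv.subtypeEquivRight (fun v => ?_)
    rw [hK]
    constructor
    · intro hv
      exact hv ⟨u, Subgroup.mem_zpowers u⟩
    · intro hv k
      have h1 : u ∈ MulAction.stabilizer _ v := MulAction.mem_stabilizer_iff.2 ((hus v).trans hv)
      exact MulAction.mem_stabilizer_iff.1 (Subgroup.zpowers_le.2 h1 k.2)
  rw [e, Module.natCard_eq_pow_finrank (K := F) (V := K),
    Module.natCard_eq_pow_finrank (K := F) (V := Fin 3 → F), Nat.card_eq_fintype_card, hF,
    Module.finrank_fin_fun] at h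
  have hle : Module.finrank F K ≤ 3 := by
    have := Submodule.finrank_le K
    rwa [Module.finrank_fin_fun] at this
  have hcases : Module.finrank F K = 0 ∨ Module.finrank F K = 3 := by
    generalize Module.finrank F K = j at h hle
    interval_cases j
    · left; rfl
    · exfalso; revert h; decide
    · exfalso; revert h; decide
    · right; rfl
  rcases hcases with h0 | h3
  · have hbot : K = ⊥ := Submodule.finrank_eq_zero.1 h0
    have hmem : a ∈ K := (hK a).2 ((hfa a).trans ha)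
    rw [hbot] at hmem
    exact (Submodule.mem_bot F).1 hmem
  · exfalso
    have htop : K = ⊤ := Submodule.eq_top_of_finrank_eq (by rw [h3, Module.finrank_fin_fun])
    apply hM1
    apply Matrix.toLinAlgEquiv'.injective
    rw [map_one]
    apply LinearMap.ext
    intro v
    have hmem : v ∈ K := by rw [htop]; trivial
    exact (hK v).1 hmem

/-- [S7B] -/
theorem sl3_fix [Fintype F] (hF : Fintype.card F = 4) (t : SpecialLinearGroup (Fin 3) F)
    (ht : t ^ 7 = 1) (ht1 : t ≠ 1) :
    (∀ a : Fin 3 → F, (t : Matrix (Fin 3) (Fin 3) F) *ᵥ a = a → a = 0) ∧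
    (∀ b : Fin 3 → F, ((t⁻¹ : SpecialLinearGroup (Fin 3) F) : Matrix (Fin 3) (Fin 3) F)ᵀ *ᵥ b = b →
      b = 0) := by
  constructor
  · intro a ha
    refine s7b_aux hF _ ?_ ?_ a ha
    · have h7 : ((t ^ 7 : SpecialLinearGroup (Fin 3) F) : Matrix (Fin 3) (Fin 3) F) =
          (t : Matrix (Fin 3) (Fin 3) F) ^ 7 := Matrix.SpecialLinearGroup.coe_pow t 7
      rw [← h7, ht]
      rfl
    · intro h
      exact ht1 (Subtype.ext h)
  · intro b hb
    refine s7b_aux hF _ ?_ ?_ b hb
    · have h7 : (((t⁻¹) ^ 7 : SpecialLinearGroup (Fin 3) F) : Matrix (Fin 3) (Fin 3) F) =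
          ((t⁻¹ : SpecialLinearGroup (Fin 3) F) : Matrix (Fin 3) (Fin 3) F) ^ 7 :=
        Matrix.SpecialLinearGroup.coe_pow t⁻¹ 7
      rw [← Matrix.transpose_pow, ← h7, inv_pow, ht, inv_one]
      exact Matrix.transpose_one
    · intro h
      apply ht1
      have h1 : ((t⁻¹ : SpecialLinearGroup (Fin 3) F) : Matrix (Fin 3) (Fin 3) F) = 1 := by
        rw [← Matrix.transpose_transpose ((t⁻¹ : SpecialLinearGroup (Fin 3) F) : Matrix (Fin 3) (Fin 3) F),
          h, Matrix.transpose_one]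
      have h2 : t⁻¹ = 1 := Subtype.ext h1
      exact inv_eq_one.1 h2

end Cfsg.Agent.Lib.Helper93.GP4
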