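import Mathlib

/-! Ladder GP4 (helper93), rung S7C (helper37). -/

set_option autoImplicit false

namespace Cfsg.Agent.Lib.Helper93.GP4

/-- [S7C] -/
theorem syl7 {G : Type*} [Group G] [Finite G] (hG : Nat.card G = 251596800) (g g0 : G)
    (hg : orderOf g = 7) (hg0 : orderOf g0 = 7) : ∃ (c : G) (i : ℕ), c * g * c⁻¹ = g0 ^ i := by
  haveI : Fact (Nat.Prime 7) := ⟨by norm_num⟩
  have key : ∀ K : Subgroup G, Nat.card K = 7 → ∃ P : Sylow 7 G, (P : Subgroup G) = K := by
    intro K hK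
    have hKp : IsPGroup 7 K := IsPGroup.of_card (n := 1) (by rw [hK]; norm_num)
    obtain ⟨P, hP⟩ := hKp.exists_le_sylow
    refine ⟨P, ?_⟩
    obtain ⟨n, hn⟩ := IsPGroup.iff_card.1 P.2
    have hdvd : Nat.card P ∣ Nat.card G := Subgroup.card_subgroup_dvd_card _
    have hle : Nat.card K ≤ Nat.card P := Subgroup.card_le_of_le hP
    have hn1 : n = 1 := by
      rcases Nat.lt_or_ge n 2 with h | h
      · interval_cases n
        · rw [hn, hK] at hle; norm_num at hle
        · rfl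
      · exfalso
        have h3 : 7 ^ 2 ∣ Nat.card G := (pow_dvd_pow 7 h).trans (hn ▸ hdvd)
        rw [hG] at h3
        norm_num at h3
    symm
    apply Subgroup.eq_of_le_of_card_ge hP
    rw [hn, hn1, hK]; norm_num
  obtain ⟨P, hP⟩ := key (Subgroup.zpowers g0) (by rw [Nat.card_zpowers, hg0])
  obtain ⟨P', hP'⟩ := key (Subgroup.zpowers g) (by rw [Nat.card_zpowers, hg])
  obtain ⟨c, hc⟩ := MulAction.exists_smul_eq G P' P
  have hmem : c * g * c⁻¹ ∈ (P : Subgroup G) := by
    rw [← hc, Sylow.coe_subgroup_smul, Subgroup.mem_smul_pointwise_iff_exists]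
    exact ⟨g, by rw [hP']; exact Subgroup.mem_zpowers g, by simp [MulAut.smul_def]⟩
  rw [hP] at hmem
  obtain ⟨i, hi⟩ := (Submonoid.mem_powers_iff _ _).mp (mem_powers_iff_mem_zpowers.mpr hmem)
  exact ⟨c, i, hi.symm⟩

end Cfsg.Agent.Lib.Helper93.GP4
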