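import Cfsg.Agent.Lib.Helper93.GP4.Defs
import Cfsg.Agent.Lib.Helper93.GP4.TWO
import Cfsg.Agent.Lib.Helper93.GP4.RHO1
import Cfsg.Agent.Lib.Helper93.GP4.RHO2
import Cfsg.Agent.Lib.Helper93.GP4.S7A
import Cfsg.Agent.Lib.Helper93.GP4.S7B
import Cfsg.Agent.Lib.Helper93.GP4.S7C
import Cfsg.Agent.Lib.Helper90.G2S.O4
import Cfsg.Agent.Lib.Helper90.G2S.O8

set_option autoImplicit false

namespace Cfsg.Agent.Lib.Helper93.GP4

open Cfsg.Lie Matrix Cfsg.Agent.Lib.Helper90.G2S Cfsg.Agent.Lib.Helper93.GP3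
open scoped MatrixGroups

variable {F : Type*} [Field F]

theorem s7_rho_zero (x : G2 F) : rho x (0 : Fin 6 → F) = 0 := by
  have h := rho_add x 0 0
  rw [add_zero] at h
  exact left_eq_add.1 h

/-- [S7] -/
theorem no_fix7 [Fintype F] (hF : Fintype.card F = 4) (hG : Nat.card (G2 F) = 251596800) (g : G2 F)
    (hg : orderOf g = 7) (w : Fin 6 → F) (hfix : rho g w = w) : w = 0 := by
  have h2 := two_eq_zero4 hF
  obtain ⟨ι, hι⟩ := exists_iota (F := F)
  have hinj : Function.Injective ι := fun s s' h => o8_actsAs_inj (hι s) (h ▸ hι s')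
  obtain ⟨s, hs⟩ := exists_s7 hF
  have hg0 : orderOf (ι s) = 7 := by rw [orderOf_injective ι hinj, hs]
  haveI : Finite (G2 F) := Nat.finite_of_card_ne_zero (by rw [hG]; norm_num)
  obtain ⟨c, i, hc⟩ := syl7 hG g (ι s) hg hg0
  obtain ⟨t, ht⟩ : ∃ t, t = s ^ i := ⟨_, rfl⟩
  have hct : c * g * c⁻¹ = ι t := by rw [hc, ht, map_pow]
  have ht7 : t ^ 7 = 1 := by
    rw [ht, ← pow_mul, mul_comm, pow_mul, ← hs, pow_orderOf_eq_one, one_pow]
  have ht1 : t ≠ 1 := by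
    intro h
    rw [h, map_one] at hct
    have hg1 : g = 1 := by
      have h3 := congrArg (fun x => c⁻¹ * x * c) hct
      simpa [mul_assoc] using h3
    rw [hg1, orderOf_one] at hg
    norm_num at hg
  obtain ⟨w', hw'⟩ : ∃ w', w' = rho c w := ⟨_, rfl⟩
  have hfix' : rho (ι t) w' = w' := by
    rw [← hct, hw', ← rho_mul h2, inv_mul_cancel_right, rho_mul h2, hfix]
  obtain ⟨hA, hB⟩ := sl3_fix hF t ht7 ht1
  have hjj : jj w' = zv 0 ![w' 0, w' 1, w' 2] ![w' 3, w' 4, w' 5] 0 := by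
    ext j
    fin_cases j <;> rfl
  have hact := hι t 0 0 ![w' 0, w' 1, w' 2] ![w' 3, w' 4, w' 5]
  rw [← hjj] at hact
  have hrho : pp (zv 0 ((t : Matrix (Fin 3) (Fin 3) F) *ᵥ ![w' 0, w' 1, w' 2])
      (((t⁻¹ : SpecialLinearGroup (Fin 3) F) : Matrix (Fin 3) (Fin 3) F)ᵀ *ᵥ ![w' 3, w' 4, w' 5]) 0) = w' := by
    rw [← hact]
    exact hfix'
  have ha : (t : Matrix (Fin 3) (Fin 3) F) *ᵥ ![w' 0, w' 1, w' 2] = ![w' 0, w' 1, w' 2] := by
    ext j
    fin_cases j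
    · exact congrFun hrho 0
    · exact congrFun hrho 1
    · exact congrFun hrho 2
  have hb : ((t⁻¹ : SpecialLinearGroup (Fin 3) F) : Matrix (Fin 3) (Fin 3) F)ᵀ *ᵥ ![w' 3, w' 4, w' 5]
      = ![w' 3, w' 4, w' 5] := by
    ext j
    fin_cases j
    · exact congrFun hrho 3
    · exact congrFun hrho 4
    · exact congrFun hrho 5
  have ha0 := hA _ ha
  have hb0 := hB _ hb
  have hw'0 : w' = 0 := by
    ext j
    fin_cases j
    · exact congrFun ha0 0
    · exact congrFun ha0 1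
    · exact congrFun ha0 2
    · exact congrFun hb0 0
    · exact congrFun hb0 1
    · exact congrFun hb0 2
  calc w = rho (c⁻¹ * c) w := by rw [inv_mul_cancel, rho_one]
    _ = rho c⁻¹ w' := by rw [rho_mul h2, hw']
    _ = 0 := by rw [hw'0, s7_rho_zero]

end Cfsg.Agent.Lib.Helper93.GP4
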