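import Cfsg.Agent.Lib.Helper93.GP4.Defs
import Cfsg.Agent.Lib.Helper93.GP4.ARI4
import Cfsg.Agent.Lib.Helper93.GP4.E6
import Cfsg.Agent.Lib.Helper93.GP4.E10
import Cfsg.Agent.Lib.Helper93.GP4.S7
import Cfsg.Agent.Lib.Helper93.GP4.FV
import Cfsg.Agent.Lib.Helper93.GP4.F13

set_option autoImplicit false

namespace Cfsg.Agent.Lib.Helper93.GP4

open Cfsg.Lie Matrix Cfsg.Agent.Lib.Helper90.G2S Cfsg.Agent.Lib.Helper93.GP3
open scoped MatrixGroups

variable {F : Type*} [Field F]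

/-- [HFIX] -/
theorem hfix4 [Fintype F] (hF : Fintype.card F = 4) (hG : Nat.card (G2 F) = 251596800) (g : G2 F)
    (w : Fin 6 → F) (q : ℕ) (hw : w ≠ 0) (hfix : rho g w = w) (hq : q.Prime) (hq2 : q ≠ 2)
    (hg : orderOf g = q) : ∃ s' : G2 F, orderOf s' = 2 * q := by
  have hdvd : q ∣ 251596800 := by
    rw [← hG, ← hg]
    exact orderOf_dvd_natCard g
  rcases ari4 q hq hdvd with rfl | rfl | rfl | rfl | rfl
  · exact absurd rfl hq2
  · obtain ⟨y, hy⟩ := ex6' hF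
    exact ⟨y, by rw [hy]⟩
  · obtain ⟨y, hy⟩ := ex10 hF
    exact ⟨y, by rw [hy]⟩
  · exact absurd (no_fix7 hF hG g hg w hfix) hw
  · have h1 := fv hF g 13 (by decide) (by rw [← hg]; exact pow_orderOf_eq_one g) w hw hfix
    have h2 := card_fix13 hF g (by rw [← hg]; exact pow_orderOf_eq_one g) (by
      rintro rfl
      simp at hg)
    omega

end Cfsg.Agent.Lib.Helper93.GP4
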