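import Cfsg.Agent.Lib.Helper93.GP4.Defs
import Cfsg.Agent.Lib.Helper93.GP4.RHO1
import Cfsg.Agent.Lib.Helper93.GP4.RHO2

set_option autoImplicit false

namespace Cfsg.Agent.Lib.Helper93.GP4

open Cfsg.Lie Matrix Cfsg.Agent.Lib.Helper90.G2S Cfsg.Agent.Lib.Helper93.GP3
open scoped MatrixGroups

variable {F : Type*} [Field F]

/-- the additive automorphism of `W ^ k` given by `g` -/
def phiE (h2 : (2 : F) = 0) (k : ℕ) (g : G2 F) : (Fin k → Fin 6 → F) ≃+ (Fin k → Fin 6 → F) where
  toFun := fun v i => rho g (v i)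
  invFun := fun v i => rho g⁻¹ (v i)
  left_inv := fun v => by
    funext i
    show rho g⁻¹ (rho g (v i)) = v i
    rw [← rho_mul h2, inv_mul_cancel, rho_one]
  right_inv := fun v => by
    funext i
    show rho g (rho g⁻¹ (v i)) = v i
    rw [← rho_mul h2, mul_inv_cancel, rho_one]
  map_add' := fun v w => by
    funext i
    exact rho_add g (v i) (w i)

/-- [PHI] -/
theorem exists_phi (h2 : (2 : F) = 0) (k : ℕ) :
    ∃ φ : G2 F →* MulAut (Multiplicative (Fin k → Fin 6 → F)),
      ∀ (g : G2 F) (v : Fin k → Fin 6 → F) (i : Fin k),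
        Multiplicative.toAdd (φ g (Multiplicative.ofAdd v)) i = rho g (v i) := by
  refine ⟨MonoidHom.mk' (fun g => AddEquiv.toMultiplicative (phiE h2 k g)) ?_, ?_⟩
  · intro g h
    apply MulEquiv.ext
    intro v
    apply Multiplicative.toAdd.injective
    funext i
    exact rho_mul h2 g h _
  · intro g v i
    rfl

end Cfsg.Agent.Lib.Helper93.GP4
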