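import Mathlib

/-! Ladder GP4 (helper93), rung SEM (helper37): copy of Helper64/SemiGraph with a weaker hypothesis. -/

set_option autoImplicit false

namespace Cfsg.Agent.Lib.Helper93.GP4

open SemidirectProduct

theorem sem_adj {N S : Type*} [CommGroup N] [Group S] (φ : S →* MulAut N)
    (hN : ∀ n : N, n ^ 2 = 1)
    (hfix : ∀ (s : S) (n : N) (q : ℕ), φ s n = n → n ≠ 1 → q.Prime → q ≠ 2 → orderOf s = q →
      ∃ s' : S, orderOf s' = 2 * q)
    {p q : ℕ} (hp : p.Prime) (hq : q.Prime) (hpq : p ≠ q) (g : N ⋊[φ] S)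
    (hg : orderOf g = p * q) : ∃ s : S, orderOf s = p * q := by
  have hl : Nat.Prime 2 := Nat.prime_two
  have hm : orderOf g.right ∣ p * q := by
    rw [← hg]; exact orderOf_map_dvd (rightHom : N ⋊[φ] S →* S) g
  have hpow : ∀ k : ℕ, (g ^ k).right = g.right ^ k := fun k =>
    map_pow (rightHom : N ⋊[φ] S →* S) g k
  have hinl : g ^ orderOf g.right = inl (g ^ orderOf g.right).left := by
    ext
    · simp
    · rw [hpow, pow_orderOf_eq_one]; simp
  have h2 : p * q ∣ orderOf g.right * 2 := by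
    rw [← hg]
    apply orderOf_dvd_of_pow_eq_one
    rw [pow_mul, hinl, ← map_pow, hN, map_one]
  have aux : ∀ p q : ℕ, p.Prime → q.Prime → p ≠ q → orderOf g = p * q →
      orderOf g.right ∣ p * q → p * q ∣ orderOf g.right * 2 → 2 = p →
      ∃ s : S, orderOf s = p * q := by
    intro p q hp hq hpq hg hm h2 hlp
    subst hlp
    have hqm : q ∣ orderOf g.right := by
      rw [mul_comm 2 q] at h2
      exact Nat.dvd_of_mul_dvd_mul_right hp.pos h2
    obtain ⟨j, hj⟩ := hqm
    have hjl : j ∣ 2 := by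
      rw [hj, mul_comm 2 q] at hm
      exact Nat.dvd_of_mul_dvd_mul_left hq.pos hm
    rcases (Nat.dvd_prime hp).mp hjl with h1 | h1
    · rw [h1, mul_one] at hj
      have hne : (g ^ orderOf g.right).left ≠ 1 := by
        intro h
        rw [h, map_one] at hinl
        have := orderOf_dvd_of_pow_eq_one hinl
        rw [hg, hj] at this
        have h3 := Nat.le_of_dvd hq.pos this
        nlinarith [hq.pos]
      have hcomm : g * g ^ orderOf g.right = g ^ orderOf g.right * g :=
        (Commute.self_pow g _).eq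
      have hfx : φ g.right (g ^ orderOf g.right).left = (g ^ orderOf g.right).left := by
        have h3 := congrArg SemidirectProduct.left hcomm
        rw [mul_left, mul_left, hpow, pow_orderOf_eq_one, map_one, MulAut.one_apply,
          mul_comm (g ^ orderOf g.right).left] at h3
        exact mul_left_cancel h3
      exact hfix _ _ q hfx hne hq hpq.symm hj
    · exact ⟨g.right, by rw [hj, h1, mul_comm]⟩
  by_cases h1 : 2 = p
  · exact aux p q hp hq hpq hg hm h2 h1
  by_cases h3 : 2 = q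
  · obtain ⟨s, hs⟩ := aux q p hq hp hpq.symm (by rw [hg, mul_comm]) (by rwa [mul_comm])
      (by rwa [mul_comm q p]) h3
    exact ⟨s, by rw [hs, mul_comm]⟩
  · refine ⟨g.right, Nat.dvd_antisymm hm ?_⟩
    have hc : Nat.Coprime (p * q) 2 :=
      Nat.Coprime.mul_left ((Nat.coprime_primes hp hl).mpr (Ne.symm h1))
        ((Nat.coprime_primes hq hl).mpr (Ne.symm h3))
    exact hc.dvd_of_dvd_mul_right h2

/-- [SEM] -/
theorem sem {N S : Type*} [CommGroup N] [Group S] [Finite N] [Finite S] (φ : S →* MulAut N)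
    (hN : ∀ n : N, n ^ 2 = 1)
    (hfix : ∀ (s : S) (n : N) (q : ℕ), φ s n = n → n ≠ 1 → q.Prime → q ≠ 2 → orderOf s = q →
      ∃ s' : S, orderOf s' = 2 * q)
    (h2S : 2 ∣ Nat.card S) :
    (∀ p : ℕ, p.Prime → (p ∣ Nat.card S ↔ p ∣ Nat.card (N ⋊[φ] S))) ∧
    (∀ p q : ℕ, p.Prime → q.Prime → p ≠ q →
      ((∃ g : S, orderOf g = p * q) ↔ (∃ g : N ⋊[φ] S, orderOf g = p * q))) := by
  have hl : Nat.Prime 2 := Nat.prime_two
  have hcard : Nat.card (N ⋊[φ] S) = Nat.card N * Nat.card S := by
    rw [Nat.card_congr (equivProd : N ⋊[φ] S ≃ N × S), Nat.card_prod]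
  have : Fact (Nat.Prime 2) := ⟨hl⟩
  have hNp : IsPGroup 2 N := fun n => ⟨1, by rw [pow_one]; exact hN n⟩
  obtain ⟨k, hk⟩ := (IsPGroup.iff_card).mp hNp
  constructor
  · intro p hp
    rw [hcard]
    constructor
    · intro h; exact h.mul_left _
    · intro h
      rcases hp.dvd_mul.mp h with h | h
      · rw [hk] at h
        have := (Nat.prime_dvd_prime_iff_eq hp hl).mp (hp.dvd_of_dvd_pow h)
        rw [this]; exact h2S
      · exact h
  · intro p q hp hq hpq
    constructor
    · rintro ⟨g, hg⟩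
      exact ⟨inr g, by rw [orderOf_injective _ inr_injective, hg]⟩
    · rintro ⟨g, hg⟩
      exact sem_adj φ hN hfix hp hq hpq g hg

end Cfsg.Agent.Lib.Helper93.GP4
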