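import Cfsg.Agent.Lib.Helper93.GP4.TWO
import Cfsg.Agent.Lib.Helper93.GP4.PHI
import Cfsg.Agent.Lib.Helper93.GP4.SEM
import Cfsg.Agent.Lib.Helper93.GP4.HFIX
import Cfsg.Agent.Lib.Helper64.SemiGraph
import Cfsg.Prelude.Def_LieChev

/-! Ladder GP4: assembly (light part: the heavy facts are hypotheses). -/

set_option autoImplicit false

namespace Cfsg.Agent.Lib.Helper93.GP4

open Cfsg.Lie Matrix Cfsg.Agent.Lib.Helper90.G2S Cfsg.Agent.Lib.Helper93.GP3
open scoped MatrixGroups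

variable {F : Type*} [Field F]

theorem main4_of [Fintype F] (hF : Fintype.card F = 4) (e : G2 F ≃* chevG2.group F)
    (hG : Nat.card (G2 F) = 251596800) (N : ℕ) :
    ∃ (H : Type) (_ : Group H) (_ : Finite H), N < Nat.card H ∧
      ((∀ p : ℕ, p.Prime → (p ∣ Nat.card ↥(Cfsg.Lie.chevG2.group F) ↔ p ∣ Nat.card H)) ∧
      (∀ p q : ℕ, p.Prime → q.Prime → p ≠ q → ((∃ g : ↥(Cfsg.Lie.chevG2.group F), orderOf g = p * q) ↔ (∃ g : H, orderOf g = p * q)))) := by
  have h2 := two_eq_zero4 hF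
  obtain ⟨φ, hφ⟩ := exists_phi h2 (N + 1)
  have hfin : Finite (G2 F) := Nat.finite_of_card_ne_zero (by rw [hG]; norm_num)
  have hN : ∀ n : Multiplicative (Fin (N + 1) → Fin 6 → F), n ^ 2 = 1 := by
    intro n
    apply Multiplicative.toAdd.injective
    rw [toAdd_pow, toAdd_one]
    funext i j
    have : (2 : ℕ) • (Multiplicative.toAdd n i j) = 0 := by
      rw [nsmul_eq_mul]
      push_cast
      rw [h2, zero_mul]
    simpa using this
  have hfix : ∀ (s : G2 F) (n : Multiplicative (Fin (N + 1) → Fin 6 → F)) (q : ℕ), φ s n = n → n ≠ 1 →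
      q.Prime → q ≠ 2 → orderOf s = q → ∃ s' : G2 F, orderOf s' = 2 * q := by
    intro s n q hs hn hq hq2 ho
    have hex : ∃ i, Multiplicative.toAdd n i ≠ 0 := by
      by_contra hcon
      push Not at hcon
      apply hn
      apply Multiplicative.toAdd.injective
      funext i
      exact hcon i
    obtain ⟨i, hi⟩ := hex
    have h1 := hφ s (Multiplicative.toAdd n) i
    rw [ofAdd_toAdd, hs] at h1
    exact hfix4 hF hG s _ q hi h1.symm hq hq2 ho
  obtain ⟨hp, he⟩ := sem φ hN hfix (by rw [hG]; norm_num)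
  have hfin2 : Finite (Multiplicative (Fin (N + 1) → Fin 6 → F) ⋊[φ] G2 F) :=
    Finite.of_equiv _ SemidirectProduct.equivProd.symm
  obtain ⟨H', gH, fH, ⟨ε⟩⟩ := Cfsg.Agent.Lib.Helper64.exists_type0_copy
    (Multiplicative (Fin (N + 1) → Fin 6 → F) ⋊[φ] G2 F)
  refine ⟨H', gH, fH, ?_, ?_, ?_⟩
  · rw [← Nat.card_congr ε.toEquiv, Nat.card_congr SemidirectProduct.equivProd, Nat.card_prod, hG]
    have hc : Nat.card (Multiplicative (Fin (N + 1) → Fin 6 → F)) = 4 ^ (6 * (N + 1)) := by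
      rw [Nat.card_congr Multiplicative.toAdd, Nat.card_eq_fintype_card, Fintype.card_fun,
        Fintype.card_fun, hF, Fintype.card_fin, Fintype.card_fin, ← pow_mul]
    rw [hc]
    have h3 : N < 4 ^ (6 * (N + 1)) := by
      calc N < 6 * (N + 1) := by omega
        _ < 4 ^ (6 * (N + 1)) := Nat.lt_pow_self (by norm_num)
    nlinarith
  · intro p hpp
    rw [← Nat.card_congr e.toEquiv, ← Nat.card_congr ε.toEquiv]
    exact hp p hpp
  · intro p q hpp hqq hpq
    constructor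
    · rintro ⟨g, hg⟩
      obtain ⟨x, hx⟩ := (he p q hpp hqq hpq).1 ⟨e.symm g, by rw [MulEquiv.orderOf_eq e.symm g, hg]⟩
      exact ⟨ε x, by rw [MulEquiv.orderOf_eq ε x, hx]⟩
    · rintro ⟨g, hg⟩
      obtain ⟨x, hx⟩ := (he p q hpp hqq hpq).2 ⟨ε.symm g, by rw [MulEquiv.orderOf_eq ε.symm g, hg]⟩
      exact ⟨e x, by rw [MulEquiv.orderOf_eq e x, hx]⟩

end Cfsg.Agent.Lib.Helper93.GP4
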